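import Cfsg.Agent.H205.OZ.Tor
import Cfsg.Agent.H205.OZ.Grp

/-!
# S4842: the centralizer of a torus element in `Om (Q.prod Q')` (helper205)
-/

set_option autoImplicit false
set_option linter.unusedSectionVars false

namespace Cfsg.Agent.H205.OZ

open Module QuadraticMap Cfsg
open Cfsg.Agent.LieClassical.OrthCore Cfsg.Agent.H182.Sign Cfsg.Agent.H93.CJ Cfsg.Agent.H530.OZ
open Cfsg.Agent.H160.QSpin Cfsg.Agent.H160.QDisc Cfsg.Agent.H160.QSplit

variable {F L P : Type} [Field F] [Fintype F] [Field L] [Finite L] [Algebra F L] [AddCommGroup P] [Module F P] [Finite P]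
  {Q : QuadraticForm F L} {Q' : QuadraticForm F P} {p m k r : ℕ} {u lam : L}

/-- the situation: `L` of degree `2 m` with a form of minus type, `u` a generator of the torus, `lam` of prime order `r`
in the torus, `P` of dimension `2 k + 1` -/
structure Dat (p m k r : ℕ) (Q : QuadraticForm F L) (Q' : QuadraticForm F P) (u lam : L) : Prop where
  two : (2 : F) ≠ 0
  pp : p.Prime
  ch : CharP F p
  hm : 1 ≤ m
  sg : Sg Q m (-1)
  nd : Nondeg Q'
  dimP : finrank F P = 2 * k + 1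
  hu : orderOf u = Fintype.card F ^ m + 1
  huQ : ∀ v, Q (u * v) = Q v
  hr : r.Prime
  hlam : ∃ s : ℕ, lam = u ^ s
  hlo : orderOf lam = r
  cond : ∀ i : ℕ, 0 < i → i < 2 * m → ¬ r ∣ Fintype.card F ^ i - 1
  hrP : ∀ s ∈ O Q', ∀ j : ℕ, s ^ (r ^ j) = 1 → s = 1

theorem finite_om {V : Type*} [AddCommGroup V] [Module F V] [Finite V] (Q : QuadraticForm F V) : Finite (Om Q) := by
  have : Finite (V ≃ₗ[F] V) := Finite.of_injective (fun g => (g : V → V)) DFunLike.coe_injective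
  exact Subtype.finite

theorem block' {U W : Type*} [AddCommGroup U] [Module F U] [FiniteDimensional F U] [AddCommGroup W] [Module F W]
    [FiniteDimensional F W] {z z' : U ≃ₗ[F] U} (hz : ∀ v, z v = v → v = 0) (hz' : ∀ v, z' v = v → v = 0)
    {g : (U × W) ≃ₗ[F] (U × W)} (hc : g * pr z 1 = pr z' 1 * g) :
    ∃ (t : U ≃ₗ[F] U) (s : W ≃ₗ[F] W), g = pr t s := by
  have hcc : ∀ (u : U) (p : W), g (z u, p) = (z' (g (u, p)).1, (g (u, p)).2) := fun u p =>
    LinearEquiv.congr_fun hc (u, p)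
  have h1 : ∀ p : W, (g (0, p)).1 = 0 := by
    intro p
    have := congrArg Prod.fst (hcc 0 p)
    rw [map_zero] at this
    exact hz' _ this.symm
  have h2 : ∀ u : U, (g (u, 0)).2 = 0 := by
    intro u
    obtain ⟨v, hv⟩ : ∃ v, z v - v = u := by
      have hinj : Function.Injective ((z.toLinearMap - LinearMap.id : U →ₗ[F] U)) := by
        rw [injective_iff_map_eq_zero]
        intro v hv
        exact hz v (sub_eq_zero.1 hv)
      exact (LinearMap.injective_iff_surjective.1 hinj) u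
    have h3 : ((u, 0) : U × W) = (z v, 0) - (v, 0) := by
      rw [Prod.mk_sub_mk, hv, sub_zero]
    rw [h3, map_sub, hcc]
    exact sub_self _
  have hg : ∀ (u : U) (p : W), g (u, p) = ((g (u, 0)).1, (g (0, p)).2) := by
    intro u p
    have h3 : ((u, p) : U × W) = (u, 0) + (0, p) := by simp
    rw [h3, map_add]
    refine Prod.ext ?_ ?_
    · show (g (u, 0)).1 + (g (0, p)).1 = (g (u, 0)).1
      rw [h1, add_zero]
    · show (g (u, 0)).2 + (g (0, p)).2 = (g (0, p)).2
      rw [h2, zero_add]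
  let t : U →ₗ[F] U := (LinearMap.fst F U W).comp (g.toLinearMap.comp (LinearMap.inl F U W))
  let s : W →ₗ[F] W := (LinearMap.snd F U W).comp (g.toLinearMap.comp (LinearMap.inr F U W))
  have ht : Function.Injective t := by
    rw [injective_iff_map_eq_zero]
    intro u hu
    have h3 : g (u, 0) = 0 := Prod.ext hu (h2 u)
    rw [LinearEquiv.map_eq_zero_iff] at h3
    exact congrArg Prod.fst h3
  have hs : Function.Injective s := by
    rw [injective_iff_map_eq_zero]
    intro p hp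
    have h3 : g (0, p) = 0 := Prod.ext (h1 p) hp
    rw [LinearEquiv.map_eq_zero_iff] at h3
    exact congrArg Prod.snd h3
  refine ⟨LinearEquiv.ofInjectiveEndo t ht, LinearEquiv.ofInjectiveEndo s hs, ?_⟩
  ext p
  · exact congrArg Prod.fst (hg p.1 p.2)
  · exact congrArg Prod.snd (hg p.1 p.2)

namespace Dat

variable (D : Dat p m k r Q Q' u lam)

include D

theorem u0 : u ≠ 0 := ne_zero_of_order D.hu

theorem lam0 : lam ≠ 0 := by
  obtain ⟨s, rfl⟩ := D.hlam
  exact pow_ne_zero _ D.u0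

theorem lamQ (v : L) : Q (lam * v) = Q v := by
  obtain ⟨s, rfl⟩ := D.hlam
  have hpowQ : ∀ (m : ℕ) (v : L), Q (u ^ m * v) = Q v := by
    intro m
    induction m with
    | zero => intro v; rw [pow_zero, one_mul]
    | succ m ih => intro v; rw [pow_succ', mul_assoc, D.huQ, ih]
  exact hpowQ s v

theorem torU : TorU Q r (mulL F lam D.lam0) (LinearMap.id : L →ₗ[F] L) lam :=
  torU_minus D.lam0 D.hlo (by
    intro i hi hi2
    rw [Nat.card_eq_fintype_card]
    rw [D.sg.dim] at hi2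
    exact D.cond i hi hi2) D.lamQ

theorem odd_q : Odd (Fintype.card F) := by
  have hchF : ringChar F ≠ 2 := fun h => D.two (by
    have := ringChar.Nat.cast_ringChar (R := F)
    rw [h] at this
    exact_mod_cast this)
  exact Nat.odd_iff.2 (FiniteField.odd_card_of_char_ne_two hchF)

theorem r_ne_two : r ≠ 2 := by
  rintro rfl
  have h1 := D.cond 1 one_pos (by have := D.hm; omega)
  rw [pow_one] at h1
  exact h1 (Nat.Odd.sub_odd D.odd_q odd_one).two_dvd

theorem r_odd : Odd r := D.hr.odd_of_ne_two D.r_ne_two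

theorem r_dvd : r ∣ Fintype.card F ^ m + 1 := by
  obtain ⟨s, hs⟩ := D.hlam
  rw [← D.hlo, ← D.hu, hs]
  exact orderOf_pow_dvd s

theorem r_ne_p : r ≠ p := by
  intro h
  obtain ⟨n, hn⟩ : ∃ n : ℕ+, Fintype.card F = p ^ (n : ℕ) := by
    have := D.ch
    obtain ⟨n, hp, hn⟩ := FiniteField.card F p
    exact ⟨n, hn⟩
  have h1 : r ∣ Fintype.card F ^ m := by
    rw [hn, h]
    exact Dvd.dvd.pow (dvd_pow_self p n.2.ne') (by have := D.hm; omega)
  have h2 : r ∣ 1 := (Nat.dvd_add_right h1).1 D.r_dvd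
  exact D.hr.one_lt.ne' (Nat.dvd_one.1 h2)

theorem ndM : Nondeg (Q.prod Q') := nondeg_prod D.sg.nondeg D.nd

theorem lam_mul (v : L) (h : lam * v = v) : v = 0 := by
  by_contra hv
  have h1 : lam = 1 := by
    apply mul_right_cancel₀ hv
    rw [h, one_mul]
  have h2 := D.hlo
  rw [h1, orderOf_one] at h2
  exact D.hr.one_lt.ne h2

/-- products of isometries of the two parts -/
theorem el_pr {s t : ℤˣ} {g : L ≃ₗ[F] L} {h : P ≃ₗ[F] P} (hg : El Q s g) (hh : El Q' t h) :
    El (Q.prod Q') (s * t) (pr g h) := by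
  have : Module.Finite F L := Module.Finite.of_finite
  have : Module.Finite F P := Module.Finite.of_finite
  exact El.pr D.two D.sg.nondeg D.nd hg hh

theorem el_lam : El Q 1 (mulL F lam D.lam0) := by
  have : Module.Finite F L := Module.Finite.of_finite
  refine El.of_odd D.sg.nondeg D.torU.memO ?_
  have h1 : orderOf (mulL F lam D.lam0) ∣ r := orderOf_dvd_of_pow_eq_one D.torU.pow_eq
  exact Odd.of_dvd_nat D.r_odd h1

theorem el_z : El (Q.prod Q') 1 (pr (mulL F lam D.lam0) (1 : P ≃ₗ[F] P)) := by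
  have := D.el_pr D.el_lam (El.one Q')
  rwa [mul_one] at this

/-- the element `z` -/
def z : Om (Q.prod Q') := ⟨pr (mulL F lam D.lam0) 1, D.el_z⟩

theorem coe_z : (D.z : (L × P) ≃ₗ[F] (L × P)) = pr (mulL F lam D.lam0) 1 := rfl

theorem z_pow (i : ℕ) : ((D.z ^ i : Om (Q.prod Q')) : (L × P) ≃ₗ[F] (L × P)) = pr (mulL F lam D.lam0 ^ i) 1 := by
  rw [Subgroup.coe_pow, D.coe_z, pr_pow, one_pow]

theorem order_z : orderOf D.z = r := by
  refine (Nat.prime_dvd_prime_iff_eq ?_ D.hr).1 ?_ |> fun h => h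
  · -- the order is a prime
    have h1 : orderOf D.z ∣ r := by
      apply orderOf_dvd_of_pow_eq_one
      apply Subtype.ext
      rw [D.z_pow, D.torU.pow_eq]
      rfl
    rcases (Nat.dvd_prime D.hr).1 h1 with h2 | h2
    · exfalso
      have h3 : D.z = 1 := orderOf_eq_one_iff.1 h2
      have h4 : pr (mulL F lam D.lam0) (1 : P ≃ₗ[F] P) = 1 := congrArg Subtype.val h3
      have h5 : lam * 1 = (1 : L) := congrArg Prod.fst (LinearEquiv.congr_fun h4 ((1 : L), (0 : P)))
      exact one_ne_zero (D.lam_mul 1 h5)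
    · rw [h2]
      exact D.hr
  · apply orderOf_dvd_of_pow_eq_one
    apply Subtype.ext
    rw [D.z_pow, D.torU.pow_eq]
    rfl

/-- the elements commuting with `z` -/
theorem exists_blk {x : Om (Q.prod Q')} (hx : Commute D.z x) : ∃ (α : L) (hα : α ≠ 0) (s : P ≃ₗ[F] P) (ε : ℤˣ),
    (x : (L × P) ≃ₗ[F] (L × P)) = pr (mulL F α hα) s ∧ El Q ε (mulL F α hα) ∧ El Q' ε s := by
  have : Module.Finite F L := Module.Finite.of_finite
  have : Module.Finite F P := Module.Finite.of_finite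
  have h1 : (x : (L × P) ≃ₗ[F] (L × P)) * pr (mulL F lam D.lam0) (1 : P ≃ₗ[F] P) =
      pr (mulL F lam D.lam0) (1 : P ≃ₗ[F] P) * (x : (L × P) ≃ₗ[F] (L × P)) :=
    (congrArg Subtype.val hx.eq).symm
  have hfix : ∀ v, mulL F lam D.lam0 v = v → v = 0 := fun v hv => D.lam_mul v hv
  obtain ⟨t, s, hts⟩ := block' hfix hfix h1
  obtain ⟨hxO, hxd, hxs⟩ := x.2
  have hxO' : pr t s ∈ O (Q.prod Q') := by rw [← hts]; exact hxO
  obtain ⟨ht, hs⟩ := pr_mem_O_iff.1 hxO'
  have hc : Commute t (mulL F lam D.lam0) := by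
    rw [hts] at h1
    refine LinearEquiv.ext fun v => ?_
    exact congrArg Prod.fst (LinearEquiv.congr_fun h1 ((v : L), (0 : P)))
  obtain ⟨α, hα1, -, -⟩ := D.torU.cen t ht hc
  have hα0 : α ≠ 0 := by
    rintro rfl
    have h3 := hα1 1
    change t 1 = 0 * 1 at h3
    rw [zero_mul, LinearEquiv.map_eq_zero_iff] at h3
    exact one_ne_zero h3
  have htα : t = mulL F α hα0 := LinearEquiv.ext fun v => hα1 v
  subst htα
  have hd := det_of_comm D.sg D.torU ht hc
  have hds : LinearEquiv.det s = 1 := by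
    rw [hts, det_pr, hd, one_mul] at hxd
    exact hxd
  refine ⟨α, hα0, s, spin Q ⟨_, ht⟩, hts, ⟨ht, hd, rfl⟩, ⟨hs, hds, ?_⟩⟩
  have h3 : spin (Q.prod Q') ⟨pr (mulL F α hα0) s, pr_mem_O ht hs⟩ = 1 := by
    rw [← hxs]
    congr 1
    exact Subtype.ext hts.symm
  rw [spin_pr D.two D.sg.nondeg D.nd ht hs] at h3
  have h4 : spin Q ⟨_, ht⟩ * spin Q ⟨_, ht⟩ = 1 := units_sq _
  exact mul_left_cancel (h3.trans h4.symm)

/-- the eigenvalue -/
def tau (x : Om (Q.prod Q')) : L := ((x : (L × P) ≃ₗ[F] (L × P)) ((1 : L), (0 : P))).1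

omit D [Fintype F] in
theorem tau_of_blk {x : Om (Q.prod Q')} {α : L} {hα : α ≠ 0} {s : P ≃ₗ[F] P}
    (h : (x : (L × P) ≃ₗ[F] (L × P)) = pr (mulL F α hα) s) :
    ((x : (L × P) ≃ₗ[F] (L × P)) ((1 : L), (0 : P))).1 = α := by
  rw [h]
  show α * 1 = α
  exact mul_one α

omit D [Fintype F] in
theorem mulL_mul {α β : L} (hα : α ≠ 0) (hβ : β ≠ 0) : (mulL F α hα) * (mulL F β hβ) = mulL F (α * β) (mul_ne_zero hα hβ) :=
  LinearEquiv.ext fun v => (mul_assoc α β v).symm

omit D [Fintype F] in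
theorem mulL_congr {α β : L} (hα : α ≠ 0) (hβ : β ≠ 0) (h : α = β) : mulL F α hα = mulL F β hβ := by
  subst h
  rfl

omit D [Fintype F] in
theorem mulL_comm {α β : L} (hα : α ≠ 0) (hβ : β ≠ 0) : (mulL F α hα) * (mulL F β hβ) = mulL F β hβ * mulL F α hα :=
  LinearEquiv.ext fun v => by
    show α * (β * v) = β * (α * v)
    ring

/-- conversely -/
theorem comm_of_blk {x : Om (Q.prod Q')} {α : L} {hα : α ≠ 0} {s : P ≃ₗ[F] P}
    (h : (x : (L × P) ≃ₗ[F] (L × P)) = pr (mulL F α hα) s) : Commute D.z x := by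
  apply Subtype.ext
  show (D.z : (L × P) ≃ₗ[F] (L × P)) * x = x * D.z
  rw [h, D.coe_z, ← pr_mul, ← pr_mul, mulL_comm, one_mul, mul_one]

/-- the homomorphism to the multiplicative group -/
noncomputable def hom : Subgroup.centralizer ({D.z} : Set (Om (Q.prod Q'))) →* Lˣ :=
  MonoidHom.mk' (fun x => Units.mk0 ((((x : Om (Q.prod Q')) : (L × P) ≃ₗ[F] (L × P)) ((1 : L), (0 : P))).1) (by
    have hx : Commute D.z (x : Om (Q.prod Q')) := (Subgroup.mem_centralizer_singleton_iff.1 x.2).symm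
    obtain ⟨α, hα, s, ε, h1, -, -⟩ := D.exists_blk hx
    rw [tau_of_blk h1]
    exact hα)) (fun x y => Units.ext (by
      have hx : Commute D.z (x : Om (Q.prod Q')) := (Subgroup.mem_centralizer_singleton_iff.1 x.2).symm
      have hy : Commute D.z (y : Om (Q.prod Q')) := (Subgroup.mem_centralizer_singleton_iff.1 y.2).symm
      obtain ⟨α, hα, s, ε, h1, -, -⟩ := D.exists_blk hx
      obtain ⟨β, hβ, t, ε', h2, -, -⟩ := D.exists_blk hy
      have e1 := tau_of_blk h1
      have e2 := tau_of_blk h2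
      have e3 : ((((x : Om (Q.prod Q')) : (L × P) ≃ₗ[F] (L × P)) * ((y : Om (Q.prod Q')) : (L × P) ≃ₗ[F] (L × P)))
          ((1 : L), (0 : P))).1 = α * β := by
        rw [h1, h2]
        show α * (β * 1) = α * β
        rw [mul_one]
      exact e3.trans (congrArg₂ (· * ·) e1 e2).symm))

theorem hom_of_blk {x : Subgroup.centralizer ({D.z} : Set (Om (Q.prod Q')))} {α : L} {hα : α ≠ 0} {s : P ≃ₗ[F] P}
    (h : ((x : Om (Q.prod Q')) : (L × P) ≃ₗ[F] (L × P)) = pr (mulL F α hα) s) : (D.hom x : L) = α := tau_of_blk h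

omit D [Fintype F] in
theorem mulL_one (h : (1 : L) ≠ 0) : mulL F (1 : L) h = 1 := LinearEquiv.ext fun v => one_mul v

/-- the Sylow subgroup -/
theorem exists_sylow [hf : Fact r.Prime] : ∃ R : Sylow r (Om (Q.prod Q')), IsCyclic (R : Subgroup (Om (Q.prod Q'))) ∧
    D.z ∈ (R : Subgroup (Om (Q.prod Q'))) ∧
      Subgroup.centralizer ({D.z} : Set (Om (Q.prod Q'))) ≤ Subgroup.centralizer ((R : Subgroup (Om (Q.prod Q'))) : Set _) ∧
      ∀ x, Commute D.z x → x ^ r = 1 → x ∈ Subgroup.zpowers D.z := by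
  have := finite_om (Q.prod Q')
  have hel : ∀ x : Subgroup.centralizer ({D.z} : Set (Om (Q.prod Q'))), (∃ j : ℕ, x ^ (r ^ j) = 1) →
      ∃ (α : L) (hα : α ≠ 0), ((x : Om (Q.prod Q')) : (L × P) ≃ₗ[F] (L × P)) = pr (mulL F α hα) 1 := by
    rintro x ⟨j, hj⟩
    have hx : Commute D.z (x : Om (Q.prod Q')) := (Subgroup.mem_centralizer_singleton_iff.1 x.2).symm
    obtain ⟨α, hα, s, ε, h1, -, hs⟩ := D.exists_blk hx
    have h2 : (((x : Om (Q.prod Q')) : (L × P) ≃ₗ[F] (L × P))) ^ (r ^ j) = 1 :=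
      congrArg (fun y : Subgroup.centralizer ({D.z} : Set (Om (Q.prod Q'))) => ((y : Om (Q.prod Q')) : (L × P) ≃ₗ[F] (L × P))) hj
    rw [h1, pr_pow] at h2
    have h3 : s ^ (r ^ j) = 1 := by
      refine LinearEquiv.ext fun v => ?_
      exact congrArg Prod.snd (LinearEquiv.congr_fun h2 ((0 : L), v))
    have h4 := D.hrP s hs.1 j h3
    exact ⟨α, hα, by rw [h1, h4]⟩
  refine sylow_facts D.order_z D.hom ?_ ?_
  · intro x hx h1
    obtain ⟨α, hα, h2⟩ := hel x hx
    have h3 := D.hom_of_blk h2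
    rw [h1, Units.val_one] at h3
    subst h3
    apply Subtype.ext
    apply Subtype.ext
    rw [h2, mulL_one]
    rfl
  · intro x y hx
    obtain ⟨α, hα, h2⟩ := hel x hx
    have hy : Commute D.z (y : Om (Q.prod Q')) := (Subgroup.mem_centralizer_singleton_iff.1 y.2).symm
    obtain ⟨β, hβ, t, ε', h3, -, -⟩ := D.exists_blk hy
    apply Subtype.ext
    apply Subtype.ext
    show ((x : Om (Q.prod Q')) : (L × P) ≃ₗ[F] (L × P)) * ((y : Om (Q.prod Q')) : (L × P) ≃ₗ[F] (L × P)) =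
      ((y : Om (Q.prod Q')) : (L × P) ≃ₗ[F] (L × P)) * ((x : Om (Q.prod Q')) : (L × P) ≃ₗ[F] (L × P))
    rw [h2, h3, ← pr_mul, ← pr_mul, mulL_comm, one_mul, mul_one]

end Dat

end Cfsg.Agent.H205.OZ
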