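import Cfsg.Agent.H205.OZ.Nrm

/-!
# S4842: the normalizer of the Sylow subgroup in `Om (Q.prod Q')` (helper205)
-/

set_option autoImplicit false
set_option linter.unusedSectionVars false

namespace Cfsg.Agent.H205.OZ

open Module QuadraticMap Cfsg
open Cfsg.Agent.LieClassical.OrthCore Cfsg.Agent.H182.Sign Cfsg.Agent.H93.CJ Cfsg.Agent.H530.OZ
open Cfsg.Agent.H160.QSpin Cfsg.Agent.H160.QDisc Cfsg.Agent.H160.QSplit

variable {F L P : Type} [Field F] [Fintype F] [Field L] [Finite L] [Algebra F L] [AddCommGroup P] [Module F P] [Finite P]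
  {Q : QuadraticForm F L} {Q' : QuadraticForm F P} {p m k r : ℕ} {u lam : L}

namespace Dat

variable (D : Dat p m k r Q Q' u lam)

include D

/-- powers of the torus element have no fixed vectors -/
theorem lam_pow_mul {i : ℕ} (hi : ¬ r ∣ i) (v : L) (h : lam ^ i * v = v) : v = 0 := by
  by_contra hv
  have h1 : lam ^ i = 1 := by
    apply mul_right_cancel₀ hv
    rw [h, one_mul]
  apply hi
  rw [← D.hlo]
  exact orderOf_dvd_of_pow_eq_one h1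

theorem norm_blk {n : Om (Q.prod Q')} {i : ℕ} (h : n * D.z * n⁻¹ = D.z ^ i) :
    ∃ (t : L ≃ₗ[F] L) (s : P ≃ₗ[F] P), (n : (L × P) ≃ₗ[F] (L × P)) = pr t s ∧ t ∈ O Q ∧ s ∈ O Q' := by
  have : Module.Finite F L := Module.Finite.of_finite
  have : Module.Finite F P := Module.Finite.of_finite
  have hi : ¬ r ∣ i := by
    intro hi
    have h1 : D.z ^ i = 1 := by
      apply orderOf_dvd_iff_pow_eq_one.1
      rw [D.order_z]
      exact hi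
    rw [h1, mul_inv_eq_one] at h
    have h2 : D.z = 1 := by
      have := congrArg (fun x => n⁻¹ * x) h
      simpa using this
    have h3 := D.order_z
    rw [h2, orderOf_one] at h3
    exact D.hr.one_lt.ne h3
  have h1 : (n : (L × P) ≃ₗ[F] (L × P)) * pr (mulL F lam D.lam0) (1 : P ≃ₗ[F] P) =
      pr (mulL F lam D.lam0 ^ i) (1 : P ≃ₗ[F] P) * (n : (L × P) ≃ₗ[F] (L × P)) := by
    rw [mul_inv_eq_iff_eq_mul] at h
    have h2 := congrArg Subtype.val h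
    rw [Subgroup.coe_mul, Subgroup.coe_mul, D.z_pow, D.coe_z] at h2
    exact h2
  obtain ⟨t, s, hts⟩ := block' (fun v hv => D.lam_mul v hv)
    (fun v hv => D.lam_pow_mul hi v ((mulL_pow (F := F) D.lam0 i v).symm.trans hv)) h1
  have h2 : pr t s ∈ O (Q.prod Q') := by
    rw [← hts]
    exact n.2.1
  obtain ⟨ht, hs⟩ := pr_mem_O_iff.1 h2
  exact ⟨t, s, hts, ht, hs⟩

theorem norm_blk_of_mem (R : Sylow r (Om (Q.prod Q'))) (hzR : D.z ∈ (R : Subgroup (Om (Q.prod Q'))))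
    (hcyc : IsCyclic (R : Subgroup (Om (Q.prod Q'))))
    (hord : ∀ x, Commute D.z x → x ^ r = 1 → x ∈ Subgroup.zpowers D.z) {n : Om (Q.prod Q')}
    (hn : n ∈ Subgroup.normalizer ((R : Subgroup (Om (Q.prod Q'))) : Set _)) :
    ∃ (t : L ≃ₗ[F] L) (s : P ≃ₗ[F] P), (n : (L × P) ≃ₗ[F] (L × P)) = pr t s ∧ t ∈ O Q ∧ s ∈ O Q' := by
  have := finite_om (Q.prod Q')
  have h1 : n * D.z * n⁻¹ ∈ (R : Subgroup (Om (Q.prod Q'))) := (Subgroup.mem_normalizer_iff.1 hn _).1 hzR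
  have h2 : Commute D.z (n * D.z * n⁻¹) := by
    have : IsMulCommutative (R : Subgroup (Om (Q.prod Q'))) := IsCyclic.isMulCommutative
    have h3 := mul_comm' (⟨D.z, hzR⟩ : (R : Subgroup (Om (Q.prod Q')))) ⟨_, h1⟩
    exact congrArg Subtype.val h3
  have h3 : (n * D.z * n⁻¹) ^ r = 1 := by
    rw [conj_pow]
    have : D.z ^ r = 1 := by
      apply orderOf_dvd_iff_pow_eq_one.1
      rw [D.order_z]
    rw [this, mul_one, mul_inv_cancel]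
  obtain ⟨i, hi⟩ := (mem_powers_iff_mem_zpowers (x := D.z)).2 (hord _ h2 h3)
  exact D.norm_blk hi.symm

theorem hKN {n : Om (Q.prod Q')} {t : L ≃ₗ[F] L} {s : P ≃ₗ[F] P} (hn : (n : (L × P) ≃ₗ[F] (L × P)) = pr t s)
    (hs : s ∈ O Q') {w : Om (Q.prod Q')} (hw : w ∈ D.inj.range) : n * w * n⁻¹ ∈ D.inj.range := by
  obtain ⟨v, hv, hw'⟩ := D.mem_K.1 hw
  exact D.mem_K.2 ⟨s * v * s⁻¹, el_conj hs hv, D.conj_K hn hw'⟩

theorem hdK {d : Om (Q.prod Q')} {t₁ : L ≃ₗ[F] L} {s₁ : P ≃ₗ[F] P} (hd : (d : (L × P) ≃ₗ[F] (L × P)) = pr t₁ s₁)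
    (hs₁ : El Q' (-1) s₁) {n : Om (Q.prod Q')} {t : L ≃ₗ[F] L} {s : P ≃ₗ[F] P}
    (hn : (n : (L × P) ≃ₗ[F] (L × P)) = pr t s) (hs : s ∈ O Q') :
    ∃ c ∈ D.inj.range, (∀ w ∈ D.inj.range, n * w * n⁻¹ = c * w * c⁻¹) ∨
      ∀ w ∈ D.inj.range, n * w * n⁻¹ = d * (c * w * c⁻¹) * d⁻¹ := by
  obtain ⟨c, hc, h⟩ := exists_rep D.nd (by rw [D.dimP]; exact odd_two_mul_add_one k) hs₁ hs
  refine ⟨D.inj ⟨c, hc⟩, ⟨_, rfl⟩, ?_⟩
  rcases h with h | h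
  · left
    intro w hw
    obtain ⟨v, hv, hw'⟩ := D.mem_K.1 hw
    apply Subtype.ext
    rw [D.conj_K hn hw', D.conj_K (D.coe_inj ⟨c, hc⟩) hw', h]
  · right
    intro w hw
    obtain ⟨v, hv, hw'⟩ := D.mem_K.1 hw
    apply Subtype.ext
    have h1 := D.conj_K (D.coe_inj ⟨c, hc⟩) hw'
    rw [D.conj_K hn hw', D.conj_K hd h1, h]

theorem hL {d : Om (Q.prod Q')} {t₁ : L ≃ₗ[F] L} {s₁ : P ≃ₗ[F] P} (hd : (d : (L × P) ≃ₗ[F] (L × P)) = pr t₁ s₁)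
    (hs₁ : El Q' (-1) s₁) {l : Om (Q.prod Q')} (hl : Commute D.z l) : l ∈ lo Q Q' ∨ ∃ w ∈ lo Q Q', l = d * w := by
  obtain ⟨α, hα, s, ε, h1, -, hs⟩ := D.exists_blk hl
  rcases Int.units_eq_one_or ε with h | h
  · left
    subst h
    exact ⟨_, s, hs, h1⟩
  · right
    subst h
    refine ⟨d⁻¹ * l, ⟨t₁⁻¹ * mulL F α hα, s₁⁻¹ * s, ?_, ?_⟩, by group⟩
    · have := (el_inv hs₁).mul hs
      rwa [neg_mul_neg, mul_one] at this
    · rw [Subgroup.coe_mul, Subgroup.coe_inv, hd, h1, pr_inv, pr_mul]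

theorem hdL {d : Om (Q.prod Q')} {t₁ : L ≃ₗ[F] L} {s₁ : P ≃ₗ[F] P} (hd : (d : (L × P) ≃ₗ[F] (L × P)) = pr t₁ s₁)
    (hs₁ : El Q' (-1) s₁) : d ∉ lo Q Q' := by
  rintro ⟨t, s, hs, h⟩
  rw [hd] at h
  obtain ⟨-, rfl⟩ := pr_inj h
  have := el_unique hs₁ hs
  exact absurd this (by decide)

theorem comm_K {w : Om (Q.prod Q')} (hw : w ∈ D.inj.range) : Commute D.z w := by
  obtain ⟨v, hv, hw'⟩ := D.mem_K.1 hw
  have h1 : (w : (L × P) ≃ₗ[F] (L × P)) = pr (mulL F (1 : L) one_ne_zero) v := by rw [hw', mulL_one]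
  exact D.comm_of_blk h1

end Dat

end Cfsg.Agent.H205.OZ
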